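import Mathlib
import Cfsg.Agent.Lib.PLen.HHB

/-!
Derived length of `p`-subgroups: the predicate `DLen p d G` and its closure properties.
-/

set_option autoImplicit false

namespace CfsgLib.PLen

open Subgroup Cfsg CfsgLib.Core

universe u v

variable {p : ℕ}

theorem derivedSeries_eq_bot_of_injective {G : Type u} {H : Type v} [Group G] [Group H]
    (f : G →* H) (hf : Function.Injective f) {d : ℕ} (h : derivedSeries H d = ⊥) :
    derivedSeries G d = ⊥ := by
  have := map_derivedSeries_le_derivedSeries f d
  rwa [h, le_bot_iff, Subgroup.map_eq_bot_iff_of_injective _ hf] at this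

theorem derivedSeries_eq_bot_of_surjective {G : Type u} {H : Type v} [Group G] [Group H]
    (f : G →* H) (hf : Function.Surjective f) {d : ℕ} (h : derivedSeries G d = ⊥) :
    derivedSeries H d = ⊥ := by
  rw [← map_derivedSeries_eq hf, h, Subgroup.map_bot]

theorem derivedSeries_add_le {G : Type u} [Group G] {N : Subgroup G} {n : ℕ}
    (h : derivedSeries G n ≤ N) (d : ℕ) :
    derivedSeries G (n + d) ≤ (derivedSeries N d).map N.subtype := by
  induction d with
  | zero => rwa [add_zero, derivedSeries_zero, ← MonoidHom.range_eq_map, range_subtype]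
  | succ d ih =>
    rw [← add_assoc, derivedSeries_succ, derivedSeries_succ, map_commutator]
    exact commutator_mono ih ih

theorem derivedSeries_le_of_quotient {G : Type u} [Group G] {N : Subgroup G} [N.Normal] {n : ℕ}
    (h : derivedSeries (G ⧸ N) n = ⊥) : derivedSeries G n ≤ N := by
  have := map_derivedSeries_le_derivedSeries (QuotientGroup.mk' N) n
  rwa [h, le_bot_iff, Subgroup.map_eq_bot_iff, QuotientGroup.ker_mk'] at this

/-- all `p`-subgroups have derived length at most `d` -/
def DLen (p d : ℕ) (G : Type u) [Group G] : Prop :=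
  ∀ P : Subgroup G, IsPGroup p P → derivedSeries P d = ⊥

theorem DLen.of_sylow {G : Type u} [Group G] {d : ℕ}
    (h : ∀ P : Sylow p G, derivedSeries (P : Subgroup G) d = ⊥) : DLen p d G := by
  intro P hP
  obtain ⟨S, hS⟩ := hP.exists_le_sylow
  exact derivedSeries_eq_bot_of_injective (inclusion hS) (inclusion_injective hS) (h S)

theorem DLen.of_surjective {G : Type u} {X : Type v} [Group G] [Group X] [Finite G] [Fact p.Prime]
    {f : G →* X} (hf : Function.Surjective f) {d : ℕ} (h : DLen p d G) : DLen p d X := by
  intro Q hQ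
  obtain ⟨P, hP, rfl⟩ := exists_pSubgroup_lift hf hQ
  exact derivedSeries_eq_bot_of_surjective _ (f.subgroupMap_surjective P) (h P hP)

theorem DLen.coprime {G : Type u} [Group G] [Finite G] [Fact p.Prime] (h : DLen p 0 G) :
    (Nat.card G).Coprime p := by
  refine PExp.coprime fun x hx => ?_
  have := h _ (isPGroup_zpowers_iff.2 hx)
  rw [derivedSeries_zero] at this
  have h1 : (⟨x, mem_zpowers x⟩ : zpowers x) ∈ (⊥ : Subgroup (zpowers x)) := this ▸ mem_top _
  rw [pow_zero, pow_one]
  exact congrArg Subtype.val (mem_bot.1 h1)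

end CfsgLib.PLen
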